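import Cfsg.Agent.H501.GLn.Reg
import Cfsg.Agent.H941.GLn.FamOne

/-!
# S4536: truncation to the elements whose order is not divisible by `p ^ 2` (helper941)

* `Om_tau1` : `Om (tau1 x) g = Om x g` if `p ^ 2` does not divide the order of `g`, and `0` otherwise.
-/

set_option autoImplicit false

open Polynomial Cfsg

namespace Cfsg.Agent.H941.GLn.RegTwo

open Cfsg.Agent.H139.Cusp Cfsg.Agent.H614.GLn Cfsg.Agent.H577.GLB.Std Cfsg.Agent.H623.GLn Cfsg.Agent.H501.GLn
open Cfsg.Agent.H941.GLn.FamOne (tau1)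

universe u w

attribute [local instance] fintypeHom fintypeSub finite_quot

section eta

variable {F : Type u} [Field F] {K : Type w} [Field K] [Algebra F K] {θ : K →*₀ ℂ} {N M : ℕ} [NeZero M]

theorem sq_dvd_iff {x : K} {p : ℕ} (hp : p.Prime) : p ∣ orderOf (x ^ p) ↔ p ^ 2 ∣ orderOf x := by
  by_cases h : p ∣ orderOf x
  · rw [orderOf_pow_of_dvd hp.ne_zero h, pow_two]
    obtain ⟨b, hb⟩ := h
    rw [hb, Nat.mul_div_cancel_left _ hp.pos, Nat.mul_dvd_mul_iff_left hp.pos]
  · have h1 : orderOf (x ^ p) ∣ orderOf x := orderOf_pow_dvd p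
    exact ⟨fun h2 => absurd (h2.trans h1) h, fun h2 => absurd ((dvd_pow_self p two_ne_zero).trans h2) h⟩

/-- the character sum over the `p`-th multiples of the `p`-characters of level `k` -/
theorem avg_eta2 (ctx : Ctx F θ N M) {p : ℕ} (hp : p.Prime) {k : ℕ} (hk : 0 < k) (hkN : k ≤ N) {c : ZMod M}
    (hc : TorZ (Nat.card F : ℤ) M k c) {x : K} (hx0 : x ≠ 0) (hx : x ^ (Nat.card F ^ k - 1) = 1) :
    ((Eta (Nat.card F : ℤ) M p k).card : ℂ)⁻¹ * ∑ η ∈ Eta (Nat.card F : ℤ) M p k,
      θ x ^ expo (Nat.card F) M k (c + p * η) =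
    if p ^ 2 ∣ orderOf x then 0 else θ x ^ expo (Nat.card F) M k c := by
  have := ctx.finF
  have := ctx.finK
  have hq : 2 ≤ Nat.card F := Finite.one_lt_card
  obtain ⟨u, hu⟩ := ctx.dvd k hk hkN
  set Q0 := Nat.card F ^ k - 1 with hQ0
  have hQ0pos : 0 < Q0 := by
    have : 1 < Nat.card F ^ k := Nat.one_lt_pow hk.ne' hq
    omega
  have hcard : Nat.card Kˣ = Q0 * u := ctx.card.trans hu
  obtain ⟨γ, hγ⟩ := exists_pow_eq (G := Kˣ) hcard (x := Units.mk0 x hx0) (by
    apply Units.ext
    rw [Units.val_pow_eq_pow_val, Units.val_mk0, hx, Units.val_one])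
  have hγx : (γ : K) ^ u = x := by
    have := congrArg Units.val hγ
    rwa [Units.val_pow_eq_pow_val, Units.val_mk0] at this
  have hγM : θ (γ : K) ^ M = 1 := by
    rw [← map_pow, ← Units.val_pow_eq_pow_val, ← ctx.card, pow_card_eq_one', Units.val_one, map_one]
  have hmod : ∀ n : ℕ, θ (γ : K) ^ (n % M) = θ (γ : K) ^ n := by
    intro n
    conv_rhs => rw [← Nat.div_add_mod n M, pow_add, pow_mul, hγM, one_pow, one_mul]
  have hχadd : ∀ a b : ZMod M, θ (γ : K) ^ (a + b).val = θ (γ : K) ^ a.val * θ (γ : K) ^ b.val := by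
    intro a b
    rw [ZMod.val_add, hmod, pow_add]
  have hexpo : ∀ a : ZMod M, TorZ (Nat.card F : ℤ) M k a →
      θ x ^ expo (Nat.card F) M k a = θ (γ : K) ^ a.val := by
    intro a ha
    have h1 := expo_mul (by omega) ha
    have h2 : expo (Nat.card F) M k a * u = a.val := by
      apply Nat.eq_of_mul_eq_mul_right hQ0pos
      rw [mul_assoc, mul_comm u, ← hu]
      exact h1
    rw [← hγx, map_pow, ← pow_mul, mul_comm u, h2]
  have hχmul : ∀ (j : ℕ) (a : ZMod M), θ (γ : K) ^ ((j : ZMod M) * a).val = (θ (γ : K) ^ a.val) ^ j := by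
    intro j a
    rw [ZMod.val_mul, hmod, ZMod.val_natCast, pow_mul', ← pow_mul, ← pow_mul, mul_comm a.val j, mul_comm a.val (j % M),
      pow_mul, hmod, ← pow_mul]
  have hsum : ∑ η ∈ Eta (Nat.card F : ℤ) M p k, θ x ^ expo (Nat.card F) M k (c + p * η) =
      θ x ^ expo (Nat.card F) M k c * ∑ η ∈ Eta (Nat.card F : ℤ) M p k, θ (x ^ p) ^ expo (Nat.card F) M k (0 + η) := by
    rw [Finset.mul_sum]
    refine Finset.sum_congr rfl fun η hη => ?_
    have hη1 := (mem_Eta.1 hη).1
    rw [hexpo _ (torZ_add' hc (FamOne.torZ_mul' _ hη1)), hχadd, hexpo c hc, hχmul, zero_add, map_pow, ← hexpo η hη1,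
      pow_right_comm]
  have hx1 : (x ^ p) ^ Q0 = 1 := by rw [← pow_mul, mul_comm, pow_mul, hx, one_pow]
  have h0 := avg_eta ctx hp hk hkN (c := 0) (by rw [TorZ, mul_zero]) (pow_ne_zero p hx0) hx1
  rw [hsum, mul_left_comm, h0]
  have h1 : expo (Nat.card F) M k 0 = 0 := by rw [expo, ZMod.val_zero, zero_mul, Nat.zero_div]
  by_cases hd : p ^ 2 ∣ orderOf x
  · rw [if_pos hd, if_pos ((sq_dvd_iff hp).2 hd), mul_zero]
  · rw [if_neg hd, if_neg fun h => hd ((sq_dvd_iff hp).1 h), h1, pow_zero, mul_one]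

/-- restriction of `Rc` to the elements whose order is not divisible by `p ^ 2` -/
theorem regB2_Rc (ctx : Ctx F θ N M) {p : ℕ} (hp : p.Prime) {k : ℕ} (hk : 0 < k) (hkN : k ≤ N) {c : ZMod M}
    (hc : TorZ (Nat.card F : ℤ) M k c) (V : Type u) [AddCommGroup V] [Module F V] [Finite V] (T : V →ₗ[F] V) :
    regB K (p ^ 2) T.charpoly * (Rc (F := F) θ M k c).fn V T =
      ((Eta (Nat.card F : ℤ) M p k).card : ℂ)⁻¹ *
        ∑ η ∈ Eta (Nat.card F : ℤ) M p k, (Rc (F := F) θ M k (c + p * η)).fn V T := by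
  classical
  have := ctx.finF
  have := ctx.finK
  by_cases hV : Module.finrank F V = k
  swap
  · have h0 : ∀ c : ZMod M, (Rc (F := F) θ M k c).fn V T = 0 := fun c => by
      rw [Rc, Rf, comp_fn, if_neg hV]
    rw [h0, mul_zero, Finset.sum_eq_zero fun η _ => h0 _, mul_zero]
  have hfn : ∀ c : ZMod M, (Rc (F := F) θ M k c).fn V T = kap (lba θ (expo (Nat.card F) M k c)) T ⊤ := fun c => by
    rw [Rc, Rf, comp_fn, if_pos hV, kapF_fn]
  simp only [hfn]
  have hnt : Nontrivial V := Module.nontrivial_of_finrank_pos (R := F) (by omega)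
  by_cases hprim : ∃ (f : F[X]) (m : ℕ), f.Monic ∧ Irreducible f ∧ 0 < m ∧ T.charpoly = f ^ m
  swap
  · have h0 : ∀ a : ℕ, kap (lba (F := F) θ a) T ⊤ = 0 := fun a =>
      (kap_eq_zero_or (lba θ a) (lba_add θ a) T).resolve_left hprim
    rw [h0, mul_zero, Finset.sum_eq_zero fun η _ => h0 _, mul_zero]
  obtain ⟨f, m, hf, hirr, hm, hcp⟩ := hprim
  obtain ⟨j, hj⟩ := exists_finrank_ker hirr (g := T) (by rw [hcp]; exact dvd_pow_self f hm.ne')
  have hform : ∀ a : ℕ, kap (lba (F := F) θ a) T ⊤ = lba θ a f *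
      ∏ i ∈ Finset.range j, (1 - (Nat.card F : ℂ) ^ (f.natDegree * (i + 1))) := fun a =>
    kap_formula (lba θ a) (lba_add θ a) hf hirr (aeval_pow_of_charpoly hcp) hj
  simp only [hform]
  rw [← Finset.sum_mul, ← mul_assoc, ← mul_assoc]
  congr 1
  rw [hcp, regB_pow (p ^ 2) hf hm]
  have hdeg : f.natDegree ∣ k := by
    rw [← hV, ← LinearMap.charpoly_natDegree T, hcp, hf.natDegree_pow]
    exact dvd_mul_left _ _
  have hroot : ∀ x ∈ (f.map (algebraMap F K)).roots, aeval x f = 0 := by
    intro x hx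
    have h1 := isRoot_of_mem_roots hx
    rwa [IsRoot.def, eval_map_algebraMap] at h1
  have hpw : ∀ x ∈ (f.map (algebraMap F K)).roots, x ≠ 0 → x ^ (Nat.card F ^ k - 1) = 1 := by
    intro x hx hx0
    have h1 : minpoly F x = f := (minpoly.eq_of_irreducible_of_monic hirr (hroot x hx) hf).symm
    have h2 : x ^ (Nat.card F ^ k) = x := (pow_eq_self_iff (F := F) x k).2 (by rw [h1]; exact hdeg)
    have hq1 : 1 ≤ Nat.card F ^ k := Nat.one_le_pow _ _ Nat.card_pos
    apply mul_left_cancel₀ hx0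
    rw [← pow_succ', Nat.sub_add_cancel hq1, h2, mul_one]
  -- the average of the sums over the roots
  have havg : ((Eta (Nat.card F : ℤ) M p k).card : ℂ)⁻¹ * ∑ η ∈ Eta (Nat.card F : ℤ) M p k,
      lba θ (expo (Nat.card F) M k (c + p * η)) f =
      ((f.map (algebraMap F K)).roots.map fun x => if x = 0 then 0 else
        if p ^ 2 ∣ orderOf x then 0 else θ x ^ expo (Nat.card F) M k c).sum := by
    have h1 : ∑ η ∈ Eta (Nat.card F : ℤ) M p k, lba θ (expo (Nat.card F) M k (c + p * η)) f =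
        ((f.map (algebraMap F K)).roots.map fun x => ∑ η ∈ Eta (Nat.card F : ℤ) M p k,
          if x = 0 then 0 else θ x ^ expo (Nat.card F) M k (c + p * η)).sum := by
      simp only [lba]
      exact Multiset.sum_map_sum_map _ _
    rw [h1, ← Multiset.sum_map_mul_left]
    congr 1
    refine Multiset.map_congr rfl fun x hx => ?_
    by_cases hx0 : x = 0
    · rw [if_pos hx0]
      simp only [if_pos hx0, Finset.sum_const_zero, mul_zero]
    · rw [if_neg hx0]
      simp only [if_neg hx0]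
      exact avg_eta2 ctx hp hk hkN hc hx0 (hpw x hx hx0)
  rw [havg, regB]
  split_ifs with hreg
  · rw [one_mul, lba]
    congr 1
    refine Multiset.map_congr rfl fun x hx => ?_
    rw [if_neg (hreg x hx).1, if_neg (hreg x hx).1, if_neg (hreg x hx).2]
  · rw [zero_mul]
    symm
    push Not at hreg
    obtain ⟨y, hy, hy'⟩ := hreg
    rw [Multiset.sum_eq_zero]
    intro z hz
    obtain ⟨x, hx, rfl⟩ := Multiset.mem_map.1 hz
    by_cases hx0 : x = 0
    · rw [if_pos hx0]
    · rw [if_neg hx0, if_pos]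
      rw [orderOf_root hirr (hroot x hx) (hroot y hy)]
      exact hy' fun h => hx0 ((zero_root hirr (hroot x hx) (hroot y hy)).2 h)

/-- in dimensions `≤ N` -/
theorem piA_tau1 (ctx : Ctx F θ N M) {p : ℕ} (hp : p.Prime) {x : RS M} (hx : x ∈ GenR (Nat.card F : ℤ) M)
    (V : Type u) [AddCommGroup V] [Module F V] [Finite V] (hV : Module.finrank F V ≤ N) (T : V →ₗ[F] V) :
    (piA (F := F) θ M (tau1 (Nat.card F : ℤ) M p x)).fn V T =
      regB K (p ^ 2) T.charpoly * (piA (F := F) θ M x).fn V T := by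
  classical
  have := ctx.finF
  induction hx using Algebra.adjoin_induction generalizing V with
  | mem x hx =>
    obtain ⟨⟨k, c⟩, rfl⟩ := hx
    show (piA (F := F) θ M (tau1 (Nat.card F : ℤ) M p (rv (Nat.card F : ℤ) M k c))).fn V T =
      regB K (p ^ 2) T.charpoly * (piA (F := F) θ M (rv (Nat.card F : ℤ) M k c)).fn V T
    by_cases hkc : 0 < k ∧ TorZ (Nat.card F : ℤ) M k c
    swap
    · rw [rv, if_neg hkc, map_zero, map_zero]
      show (0 : ℂ) = _ * 0
      rw [mul_zero]
    obtain ⟨hk, hc⟩ := hkc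
    have hτ : tau1 (Nat.card F : ℤ) M p (rv (Nat.card F : ℤ) M k c) =
        ((Eta (Nat.card F : ℤ) M p k).card : ℂ)⁻¹ • ∑ η ∈ Eta (Nat.card F : ℤ) M p k,
          rv (Nat.card F : ℤ) M k (canon (Nat.card F : ℤ) M c + p * η) := by
      rw [rv, if_pos ⟨hk, hc⟩, tau1, MvPolynomial.aeval_X]
    have hev : (piA (F := F) θ M (((Eta (Nat.card F : ℤ) M p k).card : ℂ)⁻¹ • ∑ η ∈ Eta (Nat.card F : ℤ) M p k,
          rv (Nat.card F : ℤ) M k (canon (Nat.card F : ℤ) M c + p * η))).fn V T =
        ((Eta (Nat.card F : ℤ) M p k).card : ℂ)⁻¹ * ∑ η ∈ Eta (Nat.card F : ℤ) M p k,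
          (piA (F := F) θ M (rv (Nat.card F : ℤ) M k (canon (Nat.card F : ℤ) M c + p * η))).fn V T := by
      rw [map_smul, map_sum]
      show ((Eta (Nat.card F : ℤ) M p k).card : ℂ)⁻¹ * (∑ η ∈ Eta (Nat.card F : ℤ) M p k,
          (piA (F := F) θ M (rv (Nat.card F : ℤ) M k (canon (Nat.card F : ℤ) M c + p * η)))).fn V T = _
      rw [H421.GLn.sum_fn]
    rw [hτ, hev]
    have hcan := torZ_canon hc
    by_cases hkN : k ≤ N
    · rw [piA_rv ctx hk hkN hc, ← Rc_canon ctx hk hkN hc, regB2_Rc ctx hp hk hkN hcan V T]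
      congr 1
      refine Finset.sum_congr rfl fun η hη => ?_
      rw [piA_rv ctx hk hkN (torZ_add' hcan (FamOne.torZ_mul' _ (mem_Eta.1 hη).1))]
    · have h0 : ∀ c' : ZMod M, (piA (F := F) θ M (rv (Nat.card F : ℤ) M k c')).fn V T = 0 := by
        intro c'
        by_cases hc' : 0 < k ∧ TorZ (Nat.card F : ℤ) M k c'
        · rw [rv, if_pos hc', piA_X, Rc, Rf, comp_fn, if_neg]
          omega
        · rw [rv, if_neg hc', map_zero]
          rfl
      rw [h0, mul_zero, Finset.sum_eq_zero fun η _ => h0 _, mul_zero]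
  | algebraMap r =>
    rw [AlgHom.commutes, AlgHom.commutes]
    have h1 : (algebraMap ℂ (Fam F) r).fn V T = r * (1 : Fam F).fn V T := by
      rw [Algebra.algebraMap_eq_smul_one]
      rfl
    rw [h1]
    by_cases hs : Subsingleton V
    · have h2 : T.charpoly = 1 := by
        apply eq_one_of_monic_natDegree_zero (LinearMap.charpoly_monic _)
        rw [LinearMap.charpoly_natDegree]
        exact Module.finrank_zero_of_subsingleton
      rw [h2, regB_one, one_mul]
    · have h2 : (1 : Fam F).fn V T = 0 := if_neg hs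
      rw [h2, mul_zero, mul_zero]
  | add x y _ _ hx hy =>
    rw [map_add, map_add, map_add, Fam.add_fn, Fam.add_fn, hx V hV T, hy V hV T, mul_add]
  | mul x y _ _ hx hy =>
    rw [map_mul, map_mul, map_mul, Fam.mul_fn', Fam.mul_fn', Finset.mul_sum]
    refine Finset.sum_congr rfl fun W _ => ?_
    by_cases h : W ≤ W.comap T
    · rw [Fam.term_of h, Fam.term_of h, H421.GLn.cp_eq h,
        regB_mul _ _ _ (LinearMap.charpoly_monic _) (LinearMap.charpoly_monic _),
        hx _ ((Submodule.finrank_quotient_le W).trans hV) _, hy _ ((Submodule.finrank_le W).trans hV) _]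
      ring
    · rw [Fam.term_of_not h, Fam.term_of_not h, mul_zero]

omit [NeZero M] in
/-- the order of an automorphism is prime to `p ^ 2` if and only if the orders of its eigenvalues are -/
theorem regB2_eq (ctx : Ctx F θ N M) {p : ℕ} (hp : p.Prime) (hpF : p ≠ ringChar F)
    (V : Type u) [AddCommGroup V] [Module F V] [Finite V] (hV : Module.finrank F V ≤ N) (T : V →ₗ[F] V)
    (hT : IsUnit T) :
    (p ^ 2 ∣ orderOf T → regB K (p ^ 2) T.charpoly = 0) ∧ (¬ p ^ 2 ∣ orderOf T → regB K (p ^ 2) T.charpoly = 1) := by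
  classical
  have := ctx.finF
  have := ctx.finK
  have hfin : Finite (V →ₗ[F] V) := DFunLike.finite _
  have hspl : (T.charpoly.map (algebraMap F K)).Splits :=
    ctx.spl _ (LinearMap.charpoly_monic _) (by rw [LinearMap.charpoly_natDegree]; exact hV)
  obtain ⟨g, rfl⟩ := hT
  have hg : ∀ k : ℕ, (g : V →ₗ[F] V) ^ k = 1 ↔ g ^ k = 1 := by
    intro k
    rw [← Units.val_pow_eq_pow_val, Units.val_eq_one]
  have hord : orderOf (g : V →ₗ[F] V) = orderOf g := orderOf_units
  have hc0 : ∀ x ∈ (((g : V →ₗ[F] V).charpoly).map (algebraMap F K)).roots, x ≠ 0 := by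
    rintro x hx rfl
    have h1 := isRoot_of_mem_roots hx
    rw [IsRoot.def, eval_map_algebraMap, ← coeff_zero_eq_aeval_zero'] at h1
    have h2 := LinearMap.det_eq_sign_charpoly_coeff (g : V →ₗ[F] V)
    rw [(map_eq_zero_iff _ (algebraMap F K).injective).1 h1, mul_zero] at h2
    exact ((LinearMap.isUnit_iff_isUnit_det _).1 g.isUnit).ne_zero h2
  constructor
  · -- some eigenvalue has order divisible by `p ^ 2`
    intro hpd
    rw [regB, if_neg]
    intro hall
    -- all roots are roots of `X ^ (p m') - 1`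
    obtain ⟨s, m', hm', hM'⟩ := Nat.exists_eq_pow_mul_and_not_dvd (n := Nat.card Kˣ) Nat.card_pos.ne' p hp.ne_one
    have hroot : ∀ x ∈ (((g : V →ₗ[F] V).charpoly).map (algebraMap F K)).roots, x ^ (p * m') = 1 := by
      intro x hx
      have h1 : orderOf x ∣ Nat.card Kˣ := by
        have h2 := orderOf_dvd_natCard (Units.mk0 x (hc0 x hx))
        rwa [← orderOf_units, Units.val_mk0] at h2
      rw [hM'] at h1
      have hx0 : orderOf x ≠ 0 := by
        intro h0
        rw [h0, zero_dvd_iff, ← hM'] at h1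
        exact Nat.card_pos.ne' h1
      obtain ⟨a, b, hb, hab⟩ := Nat.exists_eq_pow_mul_and_not_dvd hx0 p hp.ne_one
      have h3 := (hall x hx).2
      have ha : a ≤ 1 := by
        by_contra h4
        apply h3
        rw [hab]
        exact Dvd.dvd.mul_right (pow_dvd_pow p (by omega)) b
      have h4 : b ∣ m' := by
        have h5 : b ∣ p ^ s * m' := (Dvd.intro_left _ hab.symm).trans h1
        exact (Nat.Coprime.pow_right s ((Nat.Prime.coprime_iff_not_dvd hp).2 hb).symm).dvd_of_dvd_mul_left h5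
      apply orderOf_dvd_iff_pow_eq_one.1
      rw [hab]
      refine mul_dvd_mul ?_ h4
      calc p ^ a ∣ p ^ 1 := pow_dvd_pow p ha
        _ = p := pow_one p
    have hdvd : (g : V →ₗ[F] V).charpoly ∣ (X ^ (p * m') - 1) ^ ((g : V →ₗ[F] V).charpoly.natDegree) := by
      rw [← Polynomial.map_dvd_map' (algebraMap F K), hspl.eq_prod_roots_of_monic ((LinearMap.charpoly_monic _).map _),
        Polynomial.map_pow, Polynomial.map_sub, Polynomial.map_pow, Polynomial.map_X, Polynomial.map_one]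
      have h1 : (g : V →ₗ[F] V).charpoly.natDegree =
          Multiset.card (((g : V →ₗ[F] V).charpoly).map (algebraMap F K)).roots := by
        rw [← hspl.natDegree_eq_card_roots, natDegree_map]
      rw [h1]
      have h2 : ∀ R : Multiset K, (∀ x ∈ R, x ^ (p * m') = 1) →
          (R.map fun a => X - C a).prod ∣ (X ^ (p * m') - 1 : K[X]) ^ (Multiset.card R) := by
        intro R
        induction R using Multiset.induction_on with
        | empty => intro _; simp
        | cons a R ih =>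
          intro hR
          rw [Multiset.map_cons, Multiset.prod_cons, Multiset.card_cons, pow_succ']
          refine mul_dvd_mul ?_ (ih fun x hx => hR x (Multiset.mem_cons_of_mem hx))
          rw [dvd_iff_isRoot, IsRoot.def, eval_sub, eval_pow, eval_X, eval_one, hR a (Multiset.mem_cons_self a R), sub_self]
      exact h2 _ hroot
    have hnil : ((g : V →ₗ[F] V) ^ (p * m') - 1) ^ ((g : V →ₗ[F] V).charpoly.natDegree) = 0 := by
      obtain ⟨b, hb⟩ := hdvd
      have h1 := congrArg (aeval (g : V →ₗ[F] V)) hb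
      rw [map_mul, LinearMap.aeval_self_charpoly, zero_mul, map_pow, map_sub, map_pow, aeval_X, map_one] at h1
      exact h1
    -- `g ^ (p m')` is unipotent
    have hr : (ringChar F).Prime := by
      have := CharP.char_is_prime_or_zero F (ringChar F)
      rcases this with h | h
      · exact h
      · exfalso
        have := ringChar.charP F
        rw [h] at this
        have := CharP.charP_to_charZero F
        exact not_finite F
    set r := ringChar F with hrdef
    have hcard : ∃ e : ℕ, (g : V →ₗ[F] V) ^ ((p * m') * r ^ e) = 1 := by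
      rcases subsingleton_or_nontrivial V with hs | hnt
      · exact ⟨0, Subsingleton.elim _ _⟩
      have : Fact r.Prime := ⟨hr⟩
      have : CharP F r := ringChar.charP F
      have : CharP (V →ₗ[F] V) r := charP_of_injective_algebraMap (algebraMap F (Module.End F V)).injective r
      set d := (g : V →ₗ[F] V).charpoly.natDegree
      refine ⟨d, ?_⟩
      have h1 : ((g : V →ₗ[F] V) ^ (p * m') - 1) ^ (r ^ d) = 0 := by
        have h2 : d ≤ r ^ d := (Nat.lt_pow_self hr.one_lt).le
        rw [← Nat.sub_add_cancel h2, pow_add, hnil, mul_zero]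
      rw [sub_pow_char_pow_of_commute _ _ (Commute.one_right _), one_pow, sub_eq_zero] at h1
      rw [pow_mul]
      exact h1
    obtain ⟨e, he⟩ := hcard
    have h3 : orderOf (g : V →ₗ[F] V) ∣ (p * m') * r ^ e := orderOf_dvd_of_pow_eq_one he
    have h5 : p * p ∣ p * (m' * r ^ e) := by
      rw [← pow_two, ← mul_assoc]
      exact hpd.trans h3
    rw [Nat.mul_dvd_mul_iff_left hp.pos] at h5
    rcases (Nat.Prime.dvd_mul hp).1 h5 with h4 | h4
    · exact hm' h4
    · exact hpF ((Nat.prime_dvd_prime_iff_eq hp hr).1 (hp.dvd_of_dvd_pow h4))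
  · intro hpd
    rw [regB, if_pos]
    intro x hx
    refine ⟨hc0 x hx, fun hpx => hpd (hpx.trans ?_)⟩
    apply orderOf_dvd_of_pow_eq_one
    set m := orderOf (g : V →ₗ[F] V) with hm
    have h1 := isRoot_of_mem_roots hx
    rw [← LinearMap.charpoly_baseChange, ← Module.End.hasEigenvalue_iff_isRoot_charpoly] at h1
    obtain ⟨v, hv⟩ := h1.exists_hasEigenvector
    have h2 := hv.pow_apply m
    have h3 : ((g : V →ₗ[F] V).baseChange K : TensorProduct F K V →ₗ[K] TensorProduct F K V) ^ m = 1 := by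
      have h4 := (map_pow (Module.End.baseChangeHom F K V) (g : V →ₗ[F] V) m).symm
      rw [hm, pow_orderOf_eq_one, map_one, ← hm] at h4
      exact h4
    rw [h3, Module.End.one_apply] at h2
    have h4 : x ^ m • v = (1 : K) • v := by
      rw [← h2]
      exact (one_smul K v).symm
    exact smul_left_injective K hv.2 h4

open Classical in
/-- truncation to the elements whose order is not divisible by `p ^ 2` -/
theorem Om_tau1 (ctx : Ctx F θ N M) {p : ℕ} (hp : p.Prime) (hpF : p ≠ ringChar F) {n : ℕ} (hn : n ≤ N)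
    {x : RS M} (hx : x ∈ GenR (Nat.card F : ℤ) M) (g : GL (Fin n) F) :
    H577.GLB.Real.Om (F := F) θ M n (tau1 (Nat.card F : ℤ) M p x) g =
      (if p ^ 2 ∣ orderOf g then 0 else 1) * H577.GLB.Real.Om (F := F) θ M n x g := by
  have := ctx.finF
  have hu : IsUnit (Matrix.toLin' (g : Matrix (Fin n) (Fin n) F)) := by
    have h1 := g.isUnit.map (Matrix.toLinAlgEquiv' : Matrix (Fin n) (Fin n) F ≃ₐ[F] _)
    exact h1
  have hfr : Module.finrank F (Fin n → F) ≤ N := by rw [Module.finrank_fin_fun]; exact hn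
  have h1 := piA_tau1 ctx hp hx (Fin n → F) hfr (Matrix.toLin' (g : Matrix (Fin n) (Fin n) F))
  have h2 := regB2_eq ctx hp hpF (Fin n → F) hfr (Matrix.toLin' (g : Matrix (Fin n) (Fin n) F)) hu
  rw [orderOf_toLin'] at h2
  show (piA (F := F) θ M (tau1 (Nat.card F : ℤ) M p x)).fn (Fin n → F) (Matrix.toLin' (g : Matrix (Fin n) (Fin n) F)) = _
  rw [h1]
  by_cases hd : p ^ 2 ∣ orderOf g
  · rw [h2.1 hd, if_pos hd, zero_mul, zero_mul]
  · rw [h2.2 hd, if_neg hd]
    rfl

end eta

end Cfsg.Agent.H941.GLn.RegTwo
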