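import Cfsg.Agent.H112.GLB.Abs
import Cfsg.Agent.H941.GLn.RegTwo
import Cfsg.Agent.H614.GLn.GB1

/-!
# S4536, GB5 (D3): if `p` divides `q - 1` a family is one block (helper941)

* `classInner_weight` : characters in different blocks are orthogonal with respect to a function of the `p`-part;
* `Rz.sameBlock_of_fam` : the abstract statement (S4536 and S4537);
* `sameBlock_of_fam` : `GL_n(F)`.
-/

set_option autoImplicit false

open Cfsg
open scoped ComplexConjugate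

namespace Cfsg.Agent.H941.GLn.GB5

open Cfsg.Agent.H577.GLB.Std Cfsg.Agent.H614 Cfsg.Agent.H112.GLB Cfsg.Agent.H941.GLn.FamOne
open Cfsg.Agent.H657 Cfsg.Agent.H608.BlockRank Cfsg.Agent.Blocks.Basic Cfsg.Agent.Blocks.Local
open Cfsg.Agent.H505.S4536.DC (pu pu_spec pReg_iff pPow_sub_iff sfun_eq Sf)

universe u w

/-! ### functions of the `p`-part -/

section part

variable {G : Type u} [Group G] [Finite G] {p : ℕ} {𝔐 : Ideal AlgInt}

/-- characters in different blocks are orthogonal with respect to a function of the `p`-part -/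
theorem classInner_weight [Fintype G] (h𝔐 : IsPModular p 𝔐) {χ ψ : IrrCharacter G}
    (hne : ψ ∉ blockOf 𝔐 (χ : G → ℂ)) (c : G → ℂ)
    (hc : ∀ y z w w' : G, IsPPart p y w → IsPPart p z w' → IsConj w w' → c y = c z) :
    classInner (fun g => c g * (χ : G → ℂ) g) (ψ : G → ℂ) = 0 := by
  have := isPrime_of_isPModular h𝔐
  have : Fact p.Prime := ⟨h𝔐.1⟩
  have hR := S0913.result p 𝔐 h𝔐 (blockOf 𝔐 (χ : G → ℂ)) ⟨χ, rfl⟩
  have h1 := Blocks.Orthogonality.orthogonal_of_compat (blockOf 𝔐 (χ : G → ℂ)) c (fun y z hyz => by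
    obtain ⟨w, hw⟩ := Blocks.SecondMain.exists_isPPart h𝔐.1 y
    obtain ⟨w', hw'⟩ := Blocks.SecondMain.exists_isPPart h𝔐.1 z
    by_cases h : IsConj w w'
    · exact hc y z w w' hw hw' h
    · exact absurd (Blocks.Orthogonality.block_orthogonality h𝔐 _ hR hw hw' h) hyz) χ ψ (mem_blockOf_self χ) hne
  rw [Cfsg.classInner]
  have h2 : ∑ g : G, (c g * (χ : G → ℂ) g) * conj ((ψ : G → ℂ) g) =
      ∑ g : G, c g * ((χ : G → ℂ) g * conj ((ψ : G → ℂ) g)) := Finset.sum_congr rfl fun g _ => by ring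
  rw [h2, h1, mul_zero]

omit [Finite G] in
theorem pow_dvd_iff (hp : p.Prime) {y w : G} (h : IsPPart p y w) (i : ℕ) : p ^ i ∣ orderOf y ↔ p ^ i ∣ orderOf w := by
  obtain ⟨v, rfl, hcomm, ⟨k, hk⟩, hv⟩ := h
  have hcop : (orderOf w).Coprime (orderOf v) := by
    rw [hk]
    exact Nat.Coprime.pow_left k ((Nat.Prime.coprime_iff_not_dvd hp).2 hv)
  rw [hcomm.orderOf_mul_eq_mul_orderOf_of_coprime hcop]
  refine ⟨fun h => ?_, fun h => Dvd.dvd.mul_right h _⟩
  exact (Nat.Coprime.pow_left i ((Nat.Prime.coprime_iff_not_dvd hp).2 hv)).dvd_of_dvd_mul_right h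

omit [Finite G] in
theorem pow_dvd_congr (hp : p.Prime) {y z w w' : G} (h : IsPPart p y w) (h' : IsPPart p z w') (hc : IsConj w w')
    (i : ℕ) : p ^ i ∣ orderOf y ↔ p ^ i ∣ orderOf z := by
  rw [pow_dvd_iff hp h, pow_dvd_iff hp h']
  obtain ⟨c, rfl⟩ := isConj_iff.1 hc
  rw [← MulAut.conj_apply, MulEquiv.orderOf_eq (MulAut.conj c) w]

end part

/-! ### multiplicities -/

theorem sfun_of_pOnly {M : ℕ} [NeZero M] {p : ℕ} (hp : p.Prime) {m : ℕ} {t : ZMod M → Fin m → ℕ} (ht : POnly M p t)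
    {δ : ZMod M} (hδ : PReg M p δ) : sfun M p t δ = H577.GLB.Std.bsz (t δ) := by
  classical
  rw [sfun_eq hp t hδ, Sf, Finset.sum_eq_single δ]
  · intro c hc hne
    have hc' : pu M p * c = δ := (Finset.mem_filter.1 hc).2
    refine ht c fun h => hne ?_
    rw [← (pReg_iff hp c).1 h, hc']
  · intro h
    exfalso
    apply h
    exact Finset.mem_filter.2 ⟨Finset.mem_univ _, (pReg_iff hp δ).1 hδ⟩

theorem bsz_eq_of_sameFam {Q : ℤ} {M : ℕ} [NeZero M] {p : ℕ} (hp : p.Prime) {m : ℕ} {t t' : ZMod M → Fin m → ℕ}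
    (ht : POnly M p t) (ht' : POnly M p t') (h : SameFam Q M p t t') (c : ZMod M) :
    H577.GLB.Std.bsz (t' c) = H577.GLB.Std.bsz (t c) := by
  by_cases hc : PReg M p c
  · rw [← sfun_of_pOnly hp ht hc, ← sfun_of_pOnly hp ht' hc]
    exact (h c hc).1.symm
  · rw [ht c hc, ht' c hc]

/-! ### the abstract statement -/

section abs

variable {Q : ℤ} {M : ℕ} [NeZero M] {p n : ℕ} {G : Type u} [Group G] [Finite G] (R : Rz Q M p n G)
  {𝔐 : Ideal AlgInt}

theorem tau1_mem_hom {x : RS M} (hx : x ∈ Hom Q M n) : tau1 Q M p x ∈ Hom Q M n := by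
  rw [x.as_sum, map_sum]
  refine Submodule.sum_mem _ fun s hs => ?_
  have h1 : tau1 Q M p (MvPolynomial.monomial s (x.coeff s)) =
      x.coeff s • ∏ v ∈ s.support, tau1 Q M p (MvPolynomial.X v) ^ s v := by
    rw [MvPolynomial.monomial_eq, map_mul, Algebra.smul_def, Finsupp.prod, map_prod]
    congr 1
    · exact (tau1 Q M p).commutes _
    · exact Finset.prod_congr rfl fun v _ => map_pow _ _ _
  rw [h1]
  refine Submodule.smul_mem _ _ ?_
  have h2 := prod_mem_hom (Q := Q) (fun v : Var M => tau1 Q M p (MvPolynomial.X v) ^ s v) (fun v => s v * v.1) s.support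
    fun v _ => pow_mem_hom (by
      rw [tau1, MvPolynomial.aeval_X]
      exact Submodule.smul_mem _ _ (Submodule.sum_mem _ fun η _ => rv_mem_hom _ _)) _
  have h3 : ∑ v ∈ s.support, s v * v.1 = n := by
    have h4 := H623.GLn.Hom.weight hx hs
    rw [← h4, Finsupp.weight_apply, Finsupp.sum]
    exact Finset.sum_congr rfl fun v _ => (smul_eq_mul _ _).symm
  rwa [h3] at h2

open Classical in
/-- **(D3), abstract form.** -/
theorem Rz.sameBlock_of_fam
    (htau1 : ∀ x ∈ Hom Q M n, ∀ g, R.om (tau1 Q M p x) g = (if p ^ 2 ∣ orderOf g then 0 else 1) * R.om x g)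
    (h𝔐 : IsPModular p 𝔐) (hQp : (Q : ZMod p) = 1) (hpM : p ∣ M) {m : ℕ} (hm : n ≤ m) (hlab : R.Bij m)
    {B : Set (IrrCharacter G)} (hB : IsPBlock 𝔐 B) {χ χ' : IrrCharacter G} (hχ : χ ∈ B)
    {t t' : LabZ Q M m n} (ht : R.IsLb χ t) (ht' : R.IsLb χ' t') (h : SameFam Q M p t.t t'.t) : χ' ∈ B := by
  have := isPrime_of_isPModular h𝔐
  have hp := h𝔐.1
  have : Fintype G := Fintype.ofFinite _
  have hQp' : IsUnit (Q : ZMod p) := by rw [hQp]; exact isUnit_one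
  have hPO := fun (S : Set (LabZ Q M m n)) (hS : S.Nonempty) => H505.S4536.DC.Fin.exists_pOnly hp R.unit hQp' hm S hS
  obtain ⟨χ₁, hχ₁, t₁, ht₁, hPO₁⟩ := R.exists_pOnly_mem h𝔐 hlab hPO hB
  have hB' : IsPBlock 𝔐 (blockOf 𝔐 (χ' : G → ℂ)) := ⟨χ', rfl⟩
  obtain ⟨χ₂, hχ₂, t₂, ht₂, hPO₂⟩ := R.exists_pOnly_mem h𝔐 hlab hPO hB'
  have hf₁ := R.sameFam_of_mem h𝔐 hm hlab hB hχ₁ hχ ht₁ ht
  have hf₂ := R.sameFam_of_mem h𝔐 hm hlab hB' (mem_blockOf_self χ') hχ₂ ht' ht₂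
  have hf : SameFam Q M p t₁.t t₂.t := SameFam.trans' hf₁ (SameFam.trans' h hf₂)
  -- different blocks
  have hsep : ∀ ψ ψ' : IrrCharacter G, ¬ (ψ ∈ B ↔ ψ' ∈ B) → ψ' ∉ blockOf 𝔐 (ψ : G → ℂ) := by
    intro ψ ψ' hne h1
    apply hne
    obtain ⟨χ₀, rfl⟩ := hB
    exact ⟨fun h2 => sameBlock_trans h2 h1, fun h2 => sameBlock_trans h2 (sameBlock_symm h1)⟩
  set S : Set (LabZ Q M m n) := {t | ∃ ψ ∈ B, R.IsLb ψ t} with hS
  have hmemS : ∀ (ψ : IrrCharacter G) (t : LabZ Q M m n), R.IsLb ψ t → (t ∈ S ↔ ψ ∈ B) := by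
    intro ψ t hψ
    constructor
    · rintro ⟨ψ', hψ', h1⟩
      rwa [(hlab.2 t).unique hψ h1]
    · exact fun h1 => ⟨ψ, h1, hψ⟩
  -- the closure of the set of labels of the block
  have hcl : ∀ (T0 : RS M →ₐ[ℂ] RS M) (c : G → ℂ), (∀ x ∈ Hom Q M n, T0 x ∈ Hom Q M n) →
      (∀ x ∈ Hom Q M n, R.om (T0 x) = fun g => c g * R.om x g) →
      (∀ y z w w' : G, IsPPart p y w → IsPPart p z w' → IsConj w w' → c y = c z) →
      ∀ t t' : LabZ Q M m n, form Q M (T0 (SchP Q M t.t)) (SchP Q M t'.t) ≠ 0 → (t ∈ S ↔ t' ∈ S) := by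
    intro T0 c hT0 hT hc t t' hne
    obtain ⟨ψ, hψ, -⟩ := hlab.2 t
    obtain ⟨ψ', hψ', -⟩ := hlab.2 t'
    rw [hmemS ψ t hψ, hmemS ψ' t' hψ']
    by_contra h1
    apply hne
    have h2 := classInner_weight h𝔐 (hsep ψ ψ' h1) c hc
    obtain ⟨s, hs⟩ := hψ
    obtain ⟨s', hs'⟩ := hψ'
    have hx := schP_mem_hom R.unit t
    have hx' := schP_mem_hom R.unit t'
    have h3 : (fun g => c g * (((s : ℤ) : ℂ) • (ψ : G → ℂ)) g) = ((s : ℤ) : ℂ) • fun g => c g * (ψ : G → ℂ) g := by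
      funext g
      simp only [Pi.smul_apply, smul_eq_mul]
      ring
    rw [← R.iso _ (hT0 _ hx) _ hx', hT _ hx, hs, hs', h3, Characters.Core.classInner_smul_left,
      Characters.Core.classInner_smul_right, h2, mul_zero, mul_zero]
  have hcl0 := hcl (tauP Q M p) (fun g => if p ∣ orderOf g then 0 else 1) (fun x hx => tauP_mem_hom p hx)
    (fun x hx => by
      rw [R.tau x hx]
      funext g
      by_cases hg : p ∣ orderOf g
      · rw [if_pos hg, zero_mul, pReg_of_not (not_not.2 hg)]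
      · rw [if_neg hg, one_mul, pReg_of hg])
    (fun y z w w' h1 h2 h3 => by
      have h4 := pow_dvd_congr hp h1 h2 h3 1
      rw [pow_one] at h4
      simp only [h4])
  have hcl1 := hcl (tau1 Q M p) (fun g => if p ^ 2 ∣ orderOf g then 0 else 1) (fun x hx => tau1_mem_hom hx)
    (fun x hx => funext fun g => htau1 x hx g)
    (fun y z w w' h1 h2 h3 => by
      have h4 := pow_dvd_congr hp h1 h2 h3 2
      simp only [h4])
  have h5 : t₂ ∈ S := mem_of_closed hp R.unit hQp hpM hm hcl0 hcl1 hPO₁ (bsz_eq_of_sameFam hp hPO₁ hPO₂ hf)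
    ((hmemS χ₁ t₁ ht₁).2 hχ₁)
  have h6 : χ₂ ∈ B := (hmemS χ₂ t₂ ht₂).1 h5
  obtain ⟨χ₀, rfl⟩ := hB
  exact sameBlock_trans h6 (sameBlock_symm hχ₂)

end abs

end Cfsg.Agent.H941.GLn.GB5

namespace Cfsg.Agent.H577.GLB.Real

open Cfsg.Agent.H614.GLn Cfsg.Agent.H577.GLB.Std Cfsg.Agent.H112.GLB Cfsg.Agent.H941.GLn Cfsg.Agent.H614
open Cfsg.Agent.H657 Cfsg.Agent.Blocks.Covering

universe u w

variable {F : Type u} [Field F] [Finite F] {K : Type w} [Field K] [Algebra F K] {θ : K →*₀ ℂ} {N M : ℕ} [NeZero M]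
  {p : ℕ} {𝔐 : Ideal AlgInt}

/-- GB5 (D3): if `p` divides `q - 1` a family is one block -/
theorem sameBlock_of_fam (hctx : Ctx F θ N M) (hpF : p ≠ ringChar F) (h𝔐 : IsPModular p 𝔐)
    (hq : ((Nat.card F : ℕ) : ZMod p) = 1) {m n : ℕ} (hn : n ≤ N) (hm : n ≤ m)
    {B : Set (IrrCharacter (GL (Fin n) F))} (hB : IsPBlock 𝔐 B) {χ χ' : IrrCharacter (GL (Fin n) F)} (hχ : χ ∈ B)
    {t t' : LabZ (Nat.card F) M m n} (ht : IsLab θ M m n χ t) (ht' : IsLab θ M m n χ' t')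
    (h : SameFam (Nat.card F) M p t.t t'.t) : χ' ∈ B := by
  classical
  have hp := h𝔐.1
  have hlab := isLab_bij hctx hn hm
  rcases Nat.eq_zero_or_pos n with rfl | hn0
  · have key : ∀ t : LabZ (Nat.card F) M m 0, t.t = fun _ (i : Fin m) => (i : ℕ) := by
      intro t
      funext c
      refine H505.S4536.DC.eq_id_of_bsz (t.mono c) ?_
      exact (Finset.sum_eq_zero_iff.1 t.sum) c (Finset.mem_univ c)
    have h1 : t = t' := LabZ.ext (by rw [key t, key t'])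
    subst h1
    rwa [(hlab.2 t).unique ht' ht]
  · have hN : 1 ≤ N := by omega
    have hpM : p ∣ M := by
      have h1 := hctx.dvd 1 one_pos hN
      rw [pow_one] at h1
      refine dvd_trans ?_ h1
      have h2 : 1 ≤ Nat.card F := Nat.card_pos
      rw [← ZMod.natCast_eq_zero_iff, Nat.cast_sub h2, hq, Nat.cast_one, sub_self]
    refine GB5.Rz.sameBlock_of_fam (GLrz hctx hp hpF hn) (fun x hx g => ?_) h𝔐 (by exact_mod_cast hq) hpM hm hlab hB hχ
      ht ht' h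
    exact RegTwo.Om_tau1 hctx hp hpF hn hx.1 g

end Cfsg.Agent.H577.GLB.Real
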